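import Cfsg.Agent.H86.HTest
import Cfsg.Agent.H82.TwD4
import Cfsg.Agent.H82.TwE6

/-!
# The element of order six in twisted groups of characteristic two (helper243, S2187)

`ht_gen` : the hypothesis `hT` of `even_opp` from an involution `y` commuting with `x_c(1)`, `x_{-c}(1)`,
`c = s_i(top)`; `hT_D4`, `hT_E6` : for the subgroups of `³D₄`, `²E₆`.
-/

set_option autoImplicit false
set_option linter.unusedSectionVars false

namespace Cfsg.Agent.H243.TwOpp

open Cfsg.Lie Cfsg.Agent.ChevalleyStructure Cfsg.Agent.ChevalleyStructure.RootCombGood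
  Cfsg.Agent.ChevalleyStructure.RootWord Cfsg.Agent.ChevalleyStructure.RootVec
  Cfsg.Agent.ChevalleyStructure.RootVecTab Cfsg.Agent.ChevalleyStructure.RootSupport
  Cfsg.Agent.ChevalleyStructure.Elts Cfsg.Agent.ChevalleyStructure.BruhatSplit
  Cfsg.Agent.H86.Lev Cfsg.Agent.H86.Graded Cfsg.Agent.H92.ChevCent Cfsg.Agent.H92.ChevFrob
  Cfsg.Agent.LieClassical.SLTwoUnipotent Cfsg.Agent.H86.Par

open Matrix (SpecialLinearGroup)

universe u

section gen

variable {D : ChevalleyDatum} {F : Type u} [Field F]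

/-- `n_γ(1) x_γ(t) n_γ(1)⁻¹ = x_{-γ}(-t)` -/
theorem nG_conj_self (hD : InList D) {γ : ℕ} (hγ : γ < D.nroots) (t : F) :
    nG hD γ (1 : F) * xG hD γ t * (nG hD γ (1 : F))⁻¹ = xG hD (D.neg γ) (-t) := by
  obtain ⟨φ, -, hφ⟩ := Cfsg.Agent.S1030.result (F := F) D hD γ hγ
  have hu : ∀ t : F, φ (u t) = xG hD γ t := fun t => Units.ext ((hφ (u t) t).1 rfl)
  have hl : ∀ t : F, φ (l t) = xG hD (D.neg γ) t := fun t => Units.ext ((hφ (l t) t).2 rfl)
  have h1 : nG hD γ (1 : F) = φ (u 1 * (l (-1) * u 1)) := by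
    rw [map_mul, map_mul, hu, hl, nG_def, inv_one]
  rw [h1, ← hu, ← map_inv, ← map_mul, ← map_mul, ← hl]
  congr 1
  rw [mul_inv_eq_iff_eq_mul]
  apply Subtype.ext
  ext i j
  simp only [Matrix.SpecialLinearGroup.coe_mul, coe_u, coe_l]
  fin_cases i <;> fin_cases j <;> simp [Matrix.mul_apply, Fin.sum_univ_two]

theorem nG_mem (hD : InList D) [CharP F 2] {H : Subgroup (GL D.Idx F)} {γ : ℕ} (h1 : xG hD γ (1 : F) ∈ H)
    (h2 : xG hD (D.neg γ) (1 : F) ∈ H) : nG hD γ (1 : F) ∈ H := by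
  rw [nG_def, inv_one, CharTwo.neg_eq]
  exact mul_mem h1 (mul_mem h2 h1)

/-- **`hT`** from an involution `y` commuting with `x_γ(1)`, `x_{-γ}(1)` -/
theorem ht_gen (hD : InList D) [CharP F 2] (f : F →+* F) {H : Subgroup (GL D.Idx F)} {i γ : ℕ} (hi : i < D.rank)
    (hγ : γ < D.nroots) (hr : D.reflectRoot i (top D) = γ) (hlev : 1 ≤ car D (top D) γ)
    (h1 : xG hD γ (1 : F) ∈ H) (h2 : xG hD (D.neg γ) (1 : F) ∈ H) (h3 : xG hD (D.simple i) (1 : F) ∈ H)
    (h4 : xG hD (D.neg (D.simple i)) (1 : F) ∈ H) {y : GL D.Idx F} (hyH : y ∈ H) (hyf : fr D f y = y)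
    (hyQ : y ∈ Q D F (top D)) (hyy : y * y = 1) (hy1 : y ≠ 1)
    (hc1 : y * xG hD γ 1 = xG hD γ 1 * y) (hc2 : y * xG hD (D.neg γ) 1 = xG hD (D.neg γ) 1 * y) :
    ∃ t ∈ H, fr D f t = t ∧ t ∈ Q D F (top D) ∧ t ≠ 1 ∧ t * t = 1 ∧ ∃ m ∈ H,
      (t * (m⁻¹ * xG hD (top D) 1 * m)) ^ 6 = 1 ∧ (t * (m⁻¹ * xG hD (top D) 1 * m)) ^ 2 ≠ 1 ∧
      (t * (m⁻¹ * xG hD (top D) 1 * m)) ^ 3 ≠ 1 := by
  have G := good hD
  have hγn := RootWord.neg_lt G hγ
  -- the monomial element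
  obtain ⟨n, hn⟩ : ∃ n : GL D.Idx F, n = nG hD γ 1 * nG hD (D.simple i) 1 := ⟨_, rfl⟩
  have hnH : n ∈ H := by rw [hn]; exact mul_mem (nG_mem hD h1 h2) (nG_mem hD h3 h4)
  have e : n * xG hD (top D) 1 * n⁻¹ = xG hD (D.neg γ) 1 := by
    obtain ⟨η, hη, h⟩ := MonomialNormal.xG_conj hD (SharpSign.sharp (F := F) hD) hi (top_lt hD)
    have hη1 : η = 1 := by
      rcases hη with h | h
      · exact h
      · rw [h, CharTwo.neg_eq]
    have h5 := (h 1).1
    rw [hη1, one_mul, hr] at h5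
    rw [hn]
    calc nG hD γ (1 : F) * nG hD (D.simple i) (1 : F) * xG hD (top D) (1 : F) *
          (nG hD γ (1 : F) * nG hD (D.simple i) (1 : F))⁻¹
        = nG hD γ (1 : F) * (nG hD (D.simple i) (1 : F) * xG hD (top D) (1 : F) *
          (nG hD (D.simple i) (1 : F))⁻¹) * (nG hD γ (1 : F))⁻¹ := by group
      _ = xG hD (D.neg γ) (1 : F) := by rw [h5, nG_conj_self hD hγ, CharTwo.neg_eq]
  obtain ⟨b, hb⟩ : ∃ b : GL D.Idx F, b = xG hD γ 1 := ⟨_, rfl⟩
  obtain ⟨c, hc⟩ : ∃ c : GL D.Idx F, c = xG hD (D.neg γ) 1 := ⟨_, rfl⟩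
  have hbb : b * b = 1 := by rw [hb]; exact x_sq hD _ _
  have hcc : c * c = 1 := by rw [hc]; exact x_sq hD _ _
  have htri : (b * c) ^ 3 = 1 := by rw [hb, hc]; exact tri hD hγ
  have hbc : b * c ≠ 1 := by
    intro h5
    have h6 : xG hD γ (1 : F) = xG hD (D.neg γ) 1 := by
      rw [← hb, ← hc]
      calc b = b * c * c := by rw [mul_assoc, hcc, mul_one]
        _ = c := by rw [h5, one_mul]
    exact RootWord.neg_ne G hγ (eq_of_xG_eq hD hγ hγn one_ne_zero h6)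
  have hsq : (b * c) ^ 2 ≠ 1 := by
    intro h5
    apply hbc
    calc b * c = (b * c) ^ 3 * ((b * c) ^ 2)⁻¹ := by group
      _ = 1 := by rw [htri, h5]; group
  rw [← hb] at hc1
  rw [← hc] at hc2 e
  have hbf : fr D f b = b := by rw [hb, fr_xG, map_one]
  have hcomm : Commute y (b * c) := Commute.mul_right hc1 hc2
  have key : y * b * ((n⁻¹)⁻¹ * xG hD (top D) 1 * n⁻¹) = y * (b * c) := by
    rw [inv_inv, e, mul_assoc]
  have hpow : ∀ k : ℕ, (y * b * ((n⁻¹)⁻¹ * xG hD (top D) 1 * n⁻¹)) ^ k = y ^ k * (b * c) ^ k := by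
    intro k
    rw [key, hcomm.mul_pow]
  refine ⟨y * b, mul_mem hyH (by rw [hb]; exact h1), by rw [map_mul, hyf, hbf], mul_mem hyQ (by
    rw [hb]; exact xG_mem_Q hD hγ hlev 1), ?_, ?_, n⁻¹, inv_mem hnH, ?_, ?_, ?_⟩
  · intro h5
    have h6 : y = b := by
      calc y = y * b * b := by rw [mul_assoc, hbb, mul_one]
        _ = b := by rw [h5, one_mul]
    rw [h6] at hc2
    apply hsq
    rw [pow_two]
    calc b * c * (b * c) = b * (c * b) * c := by group
      _ = b * (b * c) * c := by rw [hc2]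
      _ = (b * b) * (c * c) := by group
      _ = 1 := by rw [hbb, hcc, one_mul]
  · calc y * b * (y * b) = y * (b * y) * b := by group
      _ = y * (y * b) * b := by rw [hc1]
      _ = (y * y) * (b * b) := by group
      _ = 1 := by rw [hyy, hbb, one_mul]
  · rw [hpow, show (6 : ℕ) = 3 * 2 from rfl, pow_mul (b * c), htri, show (3 * 2 : ℕ) = 2 * 3 from rfl, pow_mul y,
      pow_two y, hyy]
    group
  · rw [hpow, pow_two y, hyy, one_mul]
    exact hsq
  · rw [hpow, htri, mul_one, pow_succ, pow_two, hyy, one_mul]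
    exact hy1

theorem xG_comm_of (hD : InList D) {r s : ℕ} (hr : r < D.nroots) (hs : s < D.nroots) (hne : s ≠ r)
    (hne' : s ≠ D.neg r) (h : D.commTerms r s = []) (t v : F) :
    xG hD s v * xG hD r t = xG hD r t * xG hD s v := by
  rw [UnipProd.xG_comm hD hr hs hne hne']
  have : D.commWord F r s t v = [] := by
    unfold ChevalleyDatum.commWord
    rw [h]; rfl
  rw [this, wordG_nil, mul_one]

end gen

section E6

open Cfsg.Agent.ChevalleyStructure.TwE6Basic (hE6)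

variable {F : Type u} [Field F]

/-- **`hT` for `²E₆`** -/
theorem hT_E6 [CharP F 2] (f : F →+* F) {H : Subgroup (GL chevE6.Idx F)}
    (h70 : xG hE6 70 (1 : F) ∈ H) (h1 : xG hE6 1 (1 : F) ∈ H) (h46 : xG hE6 46 (1 : F) ∈ H)
    (h25 : xG hE6 25 (1 : F) ∈ H) (h47 : xG hE6 47 (1 : F) ∈ H) :
    ∃ t ∈ H, fr chevE6 f t = t ∧ t ∈ Q chevE6 F (top chevE6) ∧ t ≠ 1 ∧ t * t = 1 ∧ ∃ m ∈ H,
      (t * (m⁻¹ * xG hE6 (top chevE6) 1 * m)) ^ 6 = 1 ∧ (t * (m⁻¹ * xG hE6 (top chevE6) 1 * m)) ^ 2 ≠ 1 ∧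
      (t * (m⁻¹ * xG hE6 (top chevE6) 1 * m)) ^ 3 ≠ 1 := by
  refine ht_gen hE6 f (i := 1) (γ := 70) (by decide +kernel) (by decide +kernel) (by decide +kernel)
    (by decide +kernel) h70 h1 h46 h25 h47 (by rw [fr_xG, map_one])
    (xG_mem_Q hE6 (by decide +kernel) (by decide +kernel) 1) (x_sq hE6 _ _) ?_ ?_ ?_
  · intro h
    exact one_ne_zero ((xG_eq_one_iff hE6 (by decide +kernel) _).1 h)
  · exact xG_comm_of hE6 (by decide +kernel) (by decide +kernel) (by decide +kernel) (by decide +kernel)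
      (by decide +kernel) _ _
  · exact xG_comm_of hE6 (by decide +kernel) (by decide +kernel) (by decide +kernel) (by decide +kernel)
      (by decide +kernel) _ _

open Cfsg.Agent.ChevalleyStructure.TwistedE6Sigma (rho) in
/-- `hT` for `²E₆`, the real root elements of order two are in `H` -/
theorem ht_e6 [CharP F 2] (ψ : F →+* F) {H : Subgroup (GL chevE6.Idx F)}
    (hR : ∀ s < chevE6.nroots, rho s = s → ∀ c : F, c = 1 ∨ c = -1 → xG hE6 s c ∈ H) :
    ∃ t ∈ H, fr chevE6 ψ t = t ∧ t ∈ Q chevE6 F (top chevE6) ∧ t ≠ 1 ∧ t * t = 1 ∧ ∃ m ∈ H,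
      (t * (m⁻¹ * xG hE6 (top chevE6) 1 * m)) ^ 6 = 1 ∧ (t * (m⁻¹ * xG hE6 (top chevE6) 1 * m)) ^ 2 ≠ 1 ∧
      (t * (m⁻¹ * xG hE6 (top chevE6) 1 * m)) ^ 3 ≠ 1 :=
  hT_E6 ψ (hR 70 (by decide +kernel) (by decide +kernel) 1 (Or.inl rfl))
    (hR 1 (by decide +kernel) (by decide +kernel) 1 (Or.inl rfl))
    (hR 46 (by decide +kernel) (by decide +kernel) 1 (Or.inl rfl))
    (hR 25 (by decide +kernel) (by decide +kernel) 1 (Or.inl rfl))
    (hR 47 (by decide +kernel) (by decide +kernel) 1 (Or.inl rfl))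

end E6

section D4

open Cfsg.Agent.H82.TwD4 (hD4)

variable {F : Type u} [Field F]

/-- three commuting involutions -/
theorem three_sq {A : Type*} [Group A] {a b c : A} (ha : a * a = 1) (hb : b * b = 1) (hc : c * c = 1)
    (hab : Commute a b) (hac : Commute a c) (hbc : Commute b c) : a * b * c * (a * b * c) = 1 := by
  have h1 : Commute (a * b) c := hac.mul_left hbc
  calc a * b * c * (a * b * c) = (a * b) * (c * (a * b)) * c := by group
    _ = (a * b) * ((a * b) * c) * c := by rw [h1.eq]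
    _ = a * (b * a) * b * (c * c) := by group
    _ = a * (a * b) * b * (c * c) := by rw [hab.eq]
    _ = (a * a) * (b * b) * (c * c) := by group
    _ = 1 := by rw [ha, hb, hc]; group

/-- **`hT` for `³D₄`** -/
theorem hT_D4 [CharP F 2] (f : F →+* F) {H : Subgroup (GL chevD4.Idx F)}
    (h22 : xG hD4 22 (1 : F) ∈ H) (h1 : xG hD4 1 (1 : F) ∈ H) (h14 : xG hD4 14 (1 : F) ∈ H)
    (h9 : xG hD4 9 (1 : F) ∈ H) (hy : xG hD4 15 (1 : F) * xG hD4 16 1 * xG hD4 19 1 ∈ H) :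
    ∃ t ∈ H, fr chevD4 f t = t ∧ t ∈ Q chevD4 F (top chevD4) ∧ t ≠ 1 ∧ t * t = 1 ∧ ∃ m ∈ H,
      (t * (m⁻¹ * xG hD4 (top chevD4) 1 * m)) ^ 6 = 1 ∧ (t * (m⁻¹ * xG hD4 (top chevD4) 1 * m)) ^ 2 ≠ 1 ∧
      (t * (m⁻¹ * xG hD4 (top chevD4) 1 * m)) ^ 3 ≠ 1 := by
  have hcm : ∀ r < 24, ∀ s < 24, s ≠ r → s ≠ chevD4.neg r → chevD4.commTerms r s = [] →
      Commute (xG hD4 s (1 : F)) (xG hD4 r 1) := fun r hr s hs h1 h2 h3 => xG_comm_of hD4 hr hs h1 h2 h3 _ _
  have hq : ∀ r < 24, 1 ≤ car chevD4 (top chevD4) r → xG hD4 r (1 : F) ∈ Q chevD4 F (top chevD4) :=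
    fun r hr h => xG_mem_Q hD4 hr h 1
  have q15 := hq 15 (by norm_num) (by decide +kernel)
  have q16 := hq 16 (by norm_num) (by decide +kernel)
  have q19 := hq 19 (by norm_num) (by decide +kernel)
  refine ht_gen hD4 f (i := 1) (γ := 22) (by decide +kernel) (by decide +kernel) (by decide +kernel)
    (by decide +kernel) h22 h1 h14 h9 hy (by simp only [map_mul, fr_xG, map_one])
    (mul_mem (mul_mem q15 q16) q19) ?_ ?_ ?_ ?_
  · exact three_sq (x_sq hD4 _ _) (x_sq hD4 _ _) (x_sq hD4 _ _)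
      (hcm 16 (by norm_num) 15 (by norm_num) (by norm_num) (by decide +kernel) (by decide +kernel))
      (hcm 19 (by norm_num) 15 (by norm_num) (by norm_num) (by decide +kernel) (by decide +kernel))
      (hcm 19 (by norm_num) 16 (by norm_num) (by norm_num) (by decide +kernel) (by decide +kernel))
  · intro h
    have h15 : (15 : ℕ) < chevD4.nroots := by decide +kernel
    have hl : car chevD4 (top chevD4) 15 = 1 := by decide +kernel
    have G := good hD4
    have T := hiT hD4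
    have e1 := kap_add hD4 G T h15 hl (mul_mem q15 q16) q19
    rw [kap_add hD4 G T h15 hl q15 q16, h, coe_xG, coe_xG, coe_xG, kap_x_self hD4 G T h15 hl,
      kap_x_ne hD4 G T h15 hl (by decide +kernel) (by decide +kernel) (by norm_num),
      kap_x_ne hD4 G T h15 hl (by decide +kernel) (by decide +kernel) (by norm_num)] at e1
    rw [show ((1 : GL chevD4.Idx F) : Matrix chevD4.Idx chevD4.Idx F) = 1 from rfl, kap_one hD4 G T h15 hl] at e1
    simp at e1
  · exact ((hcm 22 (by norm_num) 15 (by norm_num) (by norm_num) (by decide +kernel) (by decide +kernel)).mul_left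
      (hcm 22 (by norm_num) 16 (by norm_num) (by norm_num) (by decide +kernel) (by decide +kernel))).mul_left
      (hcm 22 (by norm_num) 19 (by norm_num) (by norm_num) (by decide +kernel) (by decide +kernel))
  · exact ((hcm 1 (by norm_num) 15 (by norm_num) (by norm_num) (by decide +kernel) (by decide +kernel)).mul_left
      (hcm 1 (by norm_num) 16 (by norm_num) (by norm_num) (by decide +kernel) (by decide +kernel))).mul_left
      (hcm 1 (by norm_num) 19 (by norm_num) (by norm_num) (by decide +kernel) (by decide +kernel))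

open Cfsg.Agent.H82.TwD4 (rho Lo eps) in
/-- `hT` for `³D₄` -/
theorem ht_d4 [CharP F 2] {φ ψ : F →+* F} {H : Subgroup (GL chevD4.Idx F)}
    (hR : ∀ s < chevD4.nroots, rho s = s → ∀ c : F, c = 1 ∨ c = -1 → xG hD4 s c ∈ H)
    (hU : ∀ u ∈ chevD4.posUnipotent F, D4Fixed.sig φ u = u → fr chevD4 ψ u = u → u ∈ H) :
    ∃ t ∈ H, fr chevD4 ψ t = t ∧ t ∈ Q chevD4 F (top chevD4) ∧ t ≠ 1 ∧ t * t = 1 ∧ ∃ m ∈ H,
      (t * (m⁻¹ * xG hD4 (top chevD4) 1 * m)) ^ 6 = 1 ∧ (t * (m⁻¹ * xG hD4 (top chevD4) 1 * m)) ^ 2 ≠ 1 ∧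
      (t * (m⁻¹ * xG hD4 (top chevD4) 1 * m)) ^ 3 ≠ 1 := by
  have hcm : ∀ r < 24, ∀ s < 24, s ≠ r → s ≠ chevD4.neg r → chevD4.commTerms r s = [] →
      Commute (xG hD4 s (1 : F)) (xG hD4 r 1) := fun r hr s hs h1 h2 h3 => xG_comm_of hD4 hr hs h1 h2 h3 _ _
  have c1 := hcm 16 (by norm_num) 15 (by norm_num) (by norm_num) (by decide +kernel) (by decide +kernel)
  have c2 := hcm 19 (by norm_num) 15 (by norm_num) (by norm_num) (by decide +kernel) (by decide +kernel)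
  have c3 := hcm 19 (by norm_num) 16 (by norm_num) (by norm_num) (by decide +kernel) (by decide +kernel)
  have hs : ∀ r, chevD4.IsPosRoot r → (eps r = 1 ∨ eps r = -1) → D4Fixed.sig φ (xG hD4 r (1 : F)) =
      xG hD4 (rho r) 1 := by
    intro r hr he
    have h1 := Cfsg.Agent.H82.TwD4.sig_X φ r hr (1 : F)
    rw [map_one] at h1
    rcases he with he | he
    · rw [he, Int.cast_one, mul_one] at h1
      exact h1
    · rw [he, Int.cast_neg, Int.cast_one, CharTwo.neg_eq, mul_one] at h1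
      exact h1
  have p15 : chevD4.IsPosRoot 15 := Cfsg.Agent.H82.TwD4.pos_of_mem (by decide)
  have p16 : chevD4.IsPosRoot 16 := Cfsg.Agent.H82.TwD4.pos_of_mem (by decide)
  have p19 : chevD4.IsPosRoot 19 := Cfsg.Agent.H82.TwD4.pos_of_mem (by decide)
  have r15 : rho 15 = 19 := rfl
  have r16 : rho 16 = 15 := rfl
  have r19 : rho 19 = 16 := rfl
  refine hT_D4 ψ (hR 22 (by decide +kernel) (by decide +kernel) 1 (Or.inl rfl))
    (hR 1 (by decide +kernel) (by decide +kernel) 1 (Or.inl rfl))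
    (hR 14 (by decide +kernel) (by decide +kernel) 1 (Or.inl rfl))
    (hR 9 (by decide +kernel) (by decide +kernel) 1 (Or.inl rfl))
    (hU _ (mul_mem (mul_mem (xG_mem_posUnipotent hD4 p15 1) (xG_mem_posUnipotent hD4 p16 1))
      (xG_mem_posUnipotent hD4 p19 1)) ?_ (by simp only [map_mul, fr_xG, map_one]))
  rw [map_mul, map_mul, hs 15 p15 (by decide), hs 16 p16 (by decide), hs 19 p19 (by decide), r15, r16, r19]
  calc xG hD4 19 (1 : F) * xG hD4 15 1 * xG hD4 16 1 = (xG hD4 15 (1 : F) * xG hD4 19 1) * xG hD4 16 1 := by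
        rw [c2.eq]
    _ = xG hD4 15 (1 : F) * (xG hD4 19 1 * xG hD4 16 1) := by rw [mul_assoc]
    _ = xG hD4 15 (1 : F) * (xG hD4 16 1 * xG hD4 19 1) := by rw [c3.eq]
    _ = _ := by rw [mul_assoc]

end D4

end Cfsg.Agent.H243.TwOpp
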